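import Cfsg.Agent.H71.E8Deg.Line

/-!
# The roots fixing the lines of a frame
-/

set_option autoImplicit false
set_option linter.unusedSectionVars false
set_option linter.unusedSimpArgs false

open Cfsg.Lie Cfsg.Agent.H46 Cfsg.Agent.H65.Inv Module
open Cfsg.Agent.H71.E6Deg (Sys fixGroup mem_fixGroup commutator_mem_fixGroup fixGroup_conj hG xG_add xG_inv xG_zero)

namespace Cfsg.Agent.H71.E8Deg

variable {D : ChevalleyDatum} {G : Good D} {n : ℕ} {F : Type*} [Field F] [Fintype F]
  {V : Type*} [AddCommGroup V] [Module ℂ V] [FiniteDimensional ℂ V]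

theorem testBit_lor_two_pow {E f g : ℕ} (h : (E ||| 2 ^ f).testBit g = true) : E.testBit g = true ∨ g = f := by
  rw [Nat.testBit_lor, Bool.or_eq_true, Nat.testBit_two_pow] at h
  rcases h with h | h
  · exact Or.inl h
  · exact Or.inr (of_decide_eq_true h).symm

namespace LCtx

variable (C : LCtx G n F V) {useTor : Bool} (htor : useTor = true → 3 ≤ Fintype.card F)
  {c₀ : F} (hc₀ : c₀ ≠ 0) (hμ : C.μ = 1)
include C htor hc₀ hμ

theorem derive_spec : ∀ (l : List Step) (E K K' : ℕ), derive G C.T.code useTor C.f.A C.f.r l E K = some K' →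
    (∀ x, E.testBit x = true → x < D.nroots ∧ ∀ t : F, Commute (C.P (Pi.single 0 c₀)) (C.ρ (G.xG x t))) →
    (∀ x, K.testBit x = true → ∀ t : F, G.xG x t ∈ fixGroup C.ρ (C.P (Pi.single 0 c₀))) →
    ∀ x, K'.testBit x = true → ∀ t : F, G.xG x t ∈ fixGroup C.ρ (C.P (Pi.single 0 c₀))
  | [], E, K, K', h, _, hK => by
    simp only [derive, Option.some.injEq] at h
    subst h
    exact hK
  | s :: l, E, K, K', h, hE, hK => by
    simp only [derive] at h
    cases hs : stepOk G C.T.code useTor C.f.A C.f.r E K s with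
    | false => rw [hs] at h; exact absurd h (by simp)
    | true =>
      rw [hs] at h
      refine derive_spec l _ _ K' h ?_ ?_
      · intro x hx
        cases s with
        | stab f =>
          rcases testBit_lor_two_pow hx with hx' | rfl
          · exact hE x hx'
          · exact stab_spec hs hK
        | comm f b e => exact hE x hx
        | tor f w => exact hE x hx
      · intro x hx
        cases s with
        | stab f => exact hK x hx
        | comm f b e =>
          rcases testBit_lor_two_pow hx with hx' | rfl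
          · exact hK x hx'
          · exact comm_spec hs hE
        | tor f w =>
          rcases testBit_lor_two_pow hx with hx' | rfl
          · exact hK x hx'
          · exact tor_spec hs hE
where
  stab_spec {f E K : ℕ} (hs : stepOk G C.T.code useTor C.f.A C.f.r E K (.stab f) = true)
      (hK : ∀ x, K.testBit x = true → ∀ t : F, G.xG x t ∈ fixGroup C.ρ (C.P (Pi.single 0 c₀))) :
      f < D.nroots ∧ ∀ t : F, Commute (C.P (Pi.single 0 c₀)) (C.ρ (G.xG f t)) := by
    simp only [stepOk, Bool.and_eq_true, Nat.blt_eq, List.all_eq_true, Bool.or_eq_true, Nat.beq_eq,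
      Bool.not_eq_true', ngb_eq] at hs
    obtain ⟨hf, hl⟩ := hs
    refine ⟨hf, ?_⟩
    set e : Fin (n + 1) → F := Pi.single 0 c₀ with he
    have hAmem : ∀ i, C.A i ∈ C.f.A := fun i => by
      have hlen : i.val < C.f.A.length := by
        have := i.2
        simp only [Frame.A, List.length_cons, C.facts.1]
        omega
      show C.f.A.getD i 0 ∈ _
      rw [← List.getElem_eq_getD (h := hlen)]
      exact List.getElem_mem hlen
    have hcP : ∀ a, Commute (C.P e) (C.ρ (C.U a)) := C.sys.commute_P_U e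
    -- conjugates of the vector group act on the line by the same character
    have hkey : ∀ (t : F) (a : Fin (n + 1) → F),
        C.P e * C.ρ ((G.xG f t)⁻¹ * C.U a * G.xG f t) = C.sys.chi e a • C.P e ∧
          Commute (C.P e) (C.ρ ((G.xG f t)⁻¹ * C.U a * G.xG f t)) := by
      intro t a
      induction a using C.U_induction with
      | h0 => rw [C.U_zero, mul_one, inv_mul_cancel, map_one, mul_one, AddChar.map_zero_eq_one, one_smul]
              exact ⟨rfl, Commute.one_right _⟩
      | hadd a b ha hb =>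
        rw [C.U_add, show (G.xG f t)⁻¹ * (C.U a * C.U b) * G.xG f t =
          ((G.xG f t)⁻¹ * C.U a * G.xG f t) * ((G.xG f t)⁻¹ * C.U b * G.xG f t) by group, map_mul C.ρ,
          AddChar.map_add_eq_mul, ← mul_assoc, ha.1, smul_mul_assoc, hb.1, smul_smul]
        exact ⟨rfl, ha.2.mul_right hb.2⟩
      | hs i w =>
        obtain ⟨hne, h⟩ := hl (C.A i) (hAmem i)
        have hn' : C.A i ≠ D.neg f := fun h => by simp [h] at hne
        have hA := C.facts.2.2.1 i
        have hbase : C.P e * C.ρ (G.xG (C.A i) w) = C.sys.chi e (Pi.single i w) • C.P e := by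
          rw [← C.U_single]; exact C.sys.P_mul_rho e _
        have hbc : Commute (C.P e) (C.ρ (G.xG (C.A i) w)) := by rw [← C.U_single]; exact hcP _
        rw [C.U_single]
        by_cases hif : C.A i = f
        · subst hif
          rw [xG_inv, xG_add, xG_add, show -t + w + t = w by ring]
          exact ⟨hbase, hbc⟩
        rcases h with (rfl | h0) | hk
        · exact absurd rfl hif
        · rw [mul_assoc, ← (C.T.commute hf hA hn' (Or.inr h0) t w).eq, inv_mul_cancel_left]
          exact ⟨hbase, hbc⟩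
        · rcases Nat.eq_zero_or_pos (C.T.code f (C.A i)) with h0 | hpos
          · rw [mul_assoc, ← (C.T.commute hf hA hn' (Or.inr h0) t w).eq, inv_mul_cancel_left]
            exact ⟨hbase, hbc⟩
          obtain ⟨-, v, -, heq⟩ := C.T.mul_eq (F := F) (c := C.T.code f (C.A i) - 1) hf hA hif hn' (by omega)
          rw [mul_assoc, heq t w, ← mul_assoc, ← mul_assoc, inv_mul_cancel, one_mul, map_mul, ← mul_assoc, hbase,
            smul_mul_assoc, (hK _ hk _).2]
          exact ⟨rfl, hbc.mul_right (hK _ hk _).1⟩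
    have hsum : C.P e = C.sys.N⁻¹ • ∑ a, C.sys.chi e (-a) • C.ρ (C.U a) := by
      show C.sys.P e = _
      simp only [Sys.P, sys, one_mul]
    intro t
    have hL : ∀ a, C.P e * C.ρ (G.xG f t) * C.ρ (C.U a) = C.sys.chi e a • (C.P e * C.ρ (G.xG f t)) := by
      intro a
      have h := (hkey (-t) a).1
      rw [xG_inv, neg_neg] at h
      rw [mul_assoc, ← map_mul, show G.xG f t * C.U a = G.xG f t * C.U a * G.xG f (-t) * G.xG f t by
        rw [← xG_inv, inv_mul_cancel_right], map_mul, ← mul_assoc, h, smul_mul_assoc]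
    have hR : ∀ a, C.ρ (C.U a) * (C.ρ (G.xG f t) * C.P e) = C.sys.chi e a • (C.ρ (G.xG f t) * C.P e) := by
      intro a
      obtain ⟨h1, h2⟩ := hkey t a
      rw [← mul_assoc, ← map_mul, show C.U a * G.xG f t = G.xG f t * ((G.xG f t)⁻¹ * C.U a * G.xG f t) by group,
        map_mul, mul_assoc, ← h2.eq, h1, mul_smul_comm]
    have hN : ∀ x : End ℂ V, C.sys.N⁻¹ • ∑ _a : Fin (n + 1) → F, x = x := fun x => by
      rw [Finset.sum_const, Finset.card_univ, ← Nat.cast_smul_eq_nsmul ℂ, smul_smul,
        show (Fintype.card (Fin (n + 1) → F) : ℂ) = C.sys.N from rfl, inv_mul_cancel₀ C.sys.N_ne_zero, one_smul]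
    have hχ : ∀ a, C.sys.chi e (-a) * C.sys.chi e a = 1 := fun a => by
      rw [← AddChar.map_add_eq_mul, neg_add_cancel, AddChar.map_zero_eq_one]
    have e1 : C.P e * C.ρ (G.xG f t) * C.P e = C.P e * C.ρ (G.xG f t) := by
      conv_lhs => arg 2; rw [hsum]
      rw [mul_smul_comm, Finset.mul_sum, Finset.sum_congr rfl fun a _ => by
        rw [mul_smul_comm, hL a, smul_smul, hχ a, one_smul], hN]
    have e2 : C.P e * (C.ρ (G.xG f t) * C.P e) = C.ρ (G.xG f t) * C.P e := by
      conv_lhs => arg 1; rw [hsum]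
      rw [smul_mul_assoc, Finset.sum_mul, Finset.sum_congr rfl fun a _ => by
        rw [smul_mul_assoc, hR a, smul_smul, hχ a, one_smul], hN]
    show _ = _
    rw [← e1, mul_assoc, e2]
  comm_spec {f b e E K : ℕ} (hs : stepOk G C.T.code useTor C.f.A C.f.r E K (.comm f b e) = true)
      (hE : ∀ x, E.testBit x = true → x < D.nroots ∧ ∀ t : F, Commute (C.P (Pi.single 0 c₀)) (C.ρ (G.xG x t))) :
      ∀ t : F, G.xG f t ∈ fixGroup C.ρ (C.P (Pi.single 0 c₀)) := by
    intro t
    simp only [stepOk, Bool.and_eq_true, Nat.beq_eq, Bool.not_eq_true', ngb_eq] at hs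
    obtain ⟨⟨⟨⟨hb, he⟩, hne⟩, hnn⟩, hc⟩ := hs
    have hne' : e ≠ b := fun h => by simp [h] at hne
    have hnn' : e ≠ D.neg b := fun h => by simp [h] at hnn
    obtain ⟨-, v, hv, heq⟩ := C.T.mul_eq (F := F) (hE b hb).1 (hE e he).1 hne' hnn' hc
    have hv2 : (v : F) * v = 1 := by rcases hv with rfl | rfl <;> simp
    have htr : LinearMap.trace ℂ V (C.P (Pi.single 0 c₀)) = 1 := by
      rw [show C.P (Pi.single 0 c₀) = C.sys.P (Pi.single 0 c₀) from rfl, C.sys.trace_P]
      exact_mod_cast (C.m_eq (c := Pi.single 0 c₀) (by simp [hc₀])).trans hμ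
    have hh := commutator_mem_fixGroup (g := G.xG e (-1 : F)) (h := G.xG b ((v : F) * t)) (C.sys.P_mul_P _) htr
      ((hE e he).2 _) ((hE b hb).2 _)
    have h' := heq (-((v : F) * t)) 1
    rw [show (v : F) * -(-((v : F) * t)) * 1 = (v : F) * v * t by ring, hv2, one_mul] at h'
    rw [show G.xG e (-1 : F) = (G.xG e (1 : F))⁻¹ from (xG_inv G e 1).symm,
      show G.xG b ((v : F) * t) = (G.xG b (-((v : F) * t)))⁻¹ by rw [xG_inv, neg_neg], inv_inv, inv_inv,
      show (G.xG e (1 : F))⁻¹ * (G.xG b (-((v : F) * t)))⁻¹ * G.xG e 1 * G.xG b (-((v : F) * t)) =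
        (G.xG b (-((v : F) * t)) * G.xG e 1)⁻¹ * (G.xG e 1 * G.xG b (-((v : F) * t))) by group, h',
      inv_mul_cancel_left] at hh
    exact hh
  tor_spec {f w E K : ℕ} (hs : stepOk G C.T.code useTor C.f.A C.f.r E K (.tor f w) = true)
      (hE : ∀ x, E.testBit x = true → x < D.nroots ∧ ∀ t : F, Commute (C.P (Pi.single 0 c₀)) (C.ρ (G.xG x t))) :
      ∀ t : F, G.xG f t ∈ fixGroup C.ρ (C.P (Pi.single 0 c₀)) := by
    intro t
    simp only [stepOk, Bool.and_eq_true, Bool.or_eq_true, decide_eq_true_eq, Nat.blt_eq, pr_eq] at hs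
    obtain ⟨⟨⟨⟨hT, hf⟩, hw⟩, hp0⟩, hp1⟩ := hs
    classical
    obtain ⟨x, hx0, hx1⟩ : ∃ x : F, x ≠ 0 ∧ x ≠ 1 := by
      by_contra hc
      push Not at hc
      have : (Finset.univ : Finset F).card ≤ ({0, 1} : Finset F).card := Finset.card_le_card fun x _ => by
        by_cases hx : x = 0
        · simp [hx]
        · simp [hc x hx]
      rw [Finset.card_univ] at this
      exact absurd ((htor hT).trans (this.trans Finset.card_le_two)) (by omega)
    have hcoef : x ^ D.pairing w f - 1 ≠ 0 := by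
      rcases hp1 with h | h <;> rw [h] <;> simp [sub_eq_zero, hx1, inv_eq_one]
    have hch : Commute (C.P (Pi.single 0 c₀)) (C.ρ (hG G w x)) := by
      have e := C.conj_torus hw hx0 (Pi.single 0 c₀)
      rw [show (fun i => (Pi.single 0 c₀ : Fin (n + 1) → F) i * x ^ (-D.pairing w (C.A i))) = Pi.single 0 c₀ by
        funext i
        by_cases hi : i = 0
        · subst hi; rw [C.A_zero, hp0]; simp
        · simp [hi]] at e
      exact (C.sys.rho_P_of_conj e).symm
    have htr : LinearMap.trace ℂ V (C.P (Pi.single 0 c₀)) = 1 := by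
      rw [show C.P (Pi.single 0 c₀) = C.sys.P (Pi.single 0 c₀) from rfl, C.sys.trace_P]
      exact_mod_cast (C.m_eq (c := Pi.single 0 c₀) (by simp [hc₀])).trans hμ
    have hh := commutator_mem_fixGroup (g := hG G w x) (h := G.xG f (t / (x ^ D.pairing w f - 1))) (C.sys.P_mul_P _)
      htr hch ((hE f hf).2 _)
    have hconj : hG G w x * G.xG f (t / (x ^ D.pairing w f - 1)) * (hG G w x)⁻¹ =
        G.xG f (x ^ D.pairing w f * (t / (x ^ D.pairing w f - 1))) := by
      apply Subtype.ext
      rw [Subgroup.coe_mul, Subgroup.coe_mul, Subgroup.coe_inv, mul_inv_eq_iff_eq_mul]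
      exact G.hg_mul_xg hw (hE f hf).1 hx0 _
    rw [hconj, xG_inv, xG_add, show x ^ D.pairing w f * (t / (x ^ D.pairing w f - 1)) +
        -(t / (x ^ D.pairing w f - 1)) = t by field_simp; ring] at hh
    exact hh

/-- The roots fixed by the certificate fix every shifted line. -/
theorem shifted_fixed {prev : List ℕ} (hfix : C.f.fixOk G C.T.code useTor prev = true)
    (c : Fin (n + 1) → F) (h0 : c 0 = c₀) (hsupp : ∀ j : Fin n, (j : ℕ) ∉ C.f.M → c j.succ = 0) :
    ∀ p ∈ prev, ∀ t : F, G.xG p t ∈ fixGroup C.ρ (C.P c) := by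
  classical
  subst h0
  obtain ⟨hlen, -, hA, hpar, -, -, -⟩ := C.facts
  simp only [Frame.fixOk] at hfix
  cases hd : derive G C.T.code useTor C.f.A C.f.r C.f.steps (maskOf C.f.A) (maskOf C.f.L) with
  | none => simp [hd] at hfix
  | some K =>
    rw [hd] at hfix
    simp only [Bool.and_eq_true, List.all_eq_true, Bool.or_eq_true, Bool.not_eq_true', Nat.blt_eq, Nat.beq_eq,
      testBit_maskOf, ngb_eq] at hfix
    obtain ⟨⟨⟨hprev, hMlt⟩, -⟩, hS⟩ := hfix
    have hmem : ∀ x ∈ C.f.A, ∃ i : Fin (n + 1), C.A i = x := by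
      intro x hx
      obtain ⟨i, hi, rfl⟩ := List.mem_iff_getElem.1 hx
      refine ⟨⟨i, by simpa [Frame.A, hlen] using hi⟩, ?_⟩
      show C.f.A.getD i 0 = _
      exact (List.getElem_eq_getD (h := hi) 0).symm
    have hK := C.derive_spec htor hc₀ hμ C.f.steps _ _ K hd (fun x hx => by
      obtain ⟨i, rfl⟩ := hmem x ((testBit_maskOf _ _).1 hx)
      exact ⟨hA i, fun t => by rw [← C.U_single]; exact C.sys.commute_P_U _ _⟩) (fun x hx t => by
      have hxL := (testBit_maskOf _ _).1 hx
      obtain ⟨j, hj, rfl⟩ := List.mem_iff_getElem.1 hxL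
      have he : C.A (⟨j, hlen ▸ hj⟩ : Fin n).succ = C.f.L[j] := by
        simp only [A, Frame.A, Fin.val_succ, List.getD_cons_succ]
        exact (List.getElem_eq_getD (h := hj) 0).symm
      rw [← he, ← C.U_single, mem_fixGroup]
      refine ⟨C.sys.commute_P_U _ _, ?_⟩
      rw [show C.P (Pi.single 0 (c 0)) * C.ρ (C.U (Pi.single (⟨j, hlen ▸ hj⟩ : Fin n).succ t)) = _ from
        C.sys.P_mul_rho _ _, Sys.chi_apply, single_dotProduct, Pi.single_eq_of_ne (Fin.succ_ne_zero _).symm,
        mul_zero, AddChar.map_zero_eq_one, one_smul]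
      rfl)
    set H := Subgroup.closure {g : ↥(D.group F) | ∃ x ∈ C.f.S, ∃ t : F, g = G.xG x t} with hH
    have hHfix : H ≤ fixGroup C.ρ (C.P (Pi.single 0 (c 0))) := by
      rw [hH, Subgroup.closure_le]
      rintro g ⟨x, hx, t, rfl⟩
      exact hK x (hS x hx).1.2 t
    have hgen : ∀ (x : ℕ) (t : F), x ∈ C.f.S → G.xG x t ∈ H := fun x t hx => Subgroup.subset_closure ⟨x, hx, t, rfl⟩
    set S : Finset (Fin n) := Finset.univ.filter fun j : Fin n => (j : ℕ) ∈ C.f.M with hSdef
    obtain ⟨g, hg, hgH⟩ := C.exists_move H S (fun j hj s y hy => by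
      have hjM : (j : ℕ) ∈ C.f.M := (Finset.mem_filter.1 hj).2
      induction hy using Subgroup.closure_induction with
      | mem y hy =>
        obtain ⟨x, hx, u, rfl⟩ := hy
        obtain ⟨⟨hxn, -⟩, hj'⟩ := hS x hx
        obtain ⟨hnn, h⟩ := hj' j hjM
        have hne' : x ≠ D.neg (C.par j) := fun h => by simp [par] at h; simp [h] at hnn
        by_cases hxp : x = C.par j
        · subst hxp
          rw [xG_inv, xG_add, xG_add]
          exact hgen _ _ hx
        rcases Nat.eq_zero_or_pos (C.T.code (C.par j) x) with h0 | hpos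
        · rw [mul_assoc, ← (C.T.commute (hpar j) hxn hne' (Or.inr h0) s u).eq, inv_mul_cancel_left]
          exact hgen _ _ hx
        · obtain ⟨-, v, -, heq⟩ := C.T.mul_eq (F := F) (c := C.T.code (C.par j) x - 1) (hpar j) hxn hxp hne' (by omega)
          rw [mul_assoc, heq s u, ← mul_assoc, ← mul_assoc, inv_mul_cancel, one_mul]
          rcases h with (h | h) | h
          · exact absurd h hxp
          · exact absurd h hpos.ne'
          · exact mul_mem (hgen _ _ hx) (hgen _ _ h)
      | one => simp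
      | mul a b _ _ iha ihb =>
        rw [show (G.xG (C.par j) s)⁻¹ * (a * b) * G.xG (C.par j) s =
          ((G.xG (C.par j) s)⁻¹ * a * G.xG (C.par j) s) * ((G.xG (C.par j) s)⁻¹ * b * G.xG (C.par j) s) by group]
        exact mul_mem iha ihb
      | inv a _ ih =>
        rw [show (G.xG (C.par j) s)⁻¹ * a⁻¹ * G.xG (C.par j) s = ((G.xG (C.par j) s)⁻¹ * a * G.xG (C.par j) s)⁻¹ by
          group]
        exact inv_mem ih) c hc₀ (fun j hj => hsupp j (by simpa [hSdef] using hj))
    intro p hp t
    exact fixGroup_conj hg (hHfix (hgH _ (hgen p t (hprev p hp))))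

end LCtx

end Cfsg.Agent.H71.E8Deg
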