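import Cfsg.Agent.H71.E8Deg.Table

/-!
# Frames: a root, a half of the roots pairing to one with it, and roots fixing the line they define
-/

set_option autoImplicit false

open Cfsg.Lie Cfsg.Agent.H46 Cfsg.Agent.H65.Inv

namespace Cfsg.Agent.H71.E8Deg

/-- A step of the derivation of the roots preserving or fixing the line of a frame. -/
inductive Step where
  /-- the root preserves the line -/
  | stab (f : ℕ)
  /-- the root fixes the line, as a commutator -/
  | comm (f b e : ℕ)
  /-- the root fixes the line, being moved by a torus element -/
  | tor (f w : ℕ)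

/-- The data of a frame. -/
structure Frame where
  /-- the root -/
  r : ℕ
  /-- the half -/
  L : List ℕ
  /-- the complementary half, in the same order -/
  par : List ℕ
  /-- the positions used for shifting -/
  M : List ℕ
  /-- the derivation -/
  steps : List Step
  /-- the roots fixing every shifted line -/
  S : List ℕ

variable {D : ChevalleyDatum}

/-- The mask of a list. -/
def maskOf : List ℕ → ℕ
  | [] => 0
  | a :: l => 2 ^ a ||| maskOf l

theorem testBit_maskOf : ∀ (l : List ℕ) (a : ℕ), (maskOf l).testBit a = true ↔ a ∈ l
  | [], a => by simp [maskOf]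
  | b :: l, a => by
    rw [maskOf, Nat.testBit_lor, Bool.or_eq_true, testBit_maskOf l a, Nat.testBit_two_pow, List.mem_cons]
    simp [eq_comm]

/-- The roots `a` and `b` are distinct, not opposite, and their root elements commute. -/
noncomputable def comm2 (G : Good D) (code : ℕ → ℕ → ℕ) (a b : ℕ) : Bool :=
  !(Nat.beq b (ngb G a)) && (Nat.beq b a || Nat.beq (code a b) 0)

/-- The roots of a frame. -/
def Frame.A (f : Frame) : List ℕ := f.r :: f.L

/-- The derivation step is valid: `E` the roots preserving the line, `K` those fixing it. -/
noncomputable def stepOk (G : Good D) (code : ℕ → ℕ → ℕ) (useTor : Bool) (ZL : List ℕ) (r : ℕ) (E K : ℕ) : Step → Bool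
  | .stab f => Nat.blt f D.nroots && ZL.all fun l => !(Nat.beq l (ngb G f)) &&
      (Nat.beq l f || Nat.beq (code f l) 0 || K.testBit (code f l - 1))
  | .comm f b e => E.testBit b && E.testBit e && !(Nat.beq e b) && !(Nat.beq e (ngb G b)) &&
      Nat.beq (code b e) (f + 1)
  | .tor f w => useTor && E.testBit f && Nat.blt w D.nroots && decide (pr G w r = 0) &&
      (decide (pr G w f = 1) || decide (pr G w f = -1))

/-- The roots preserving the line after a step. -/
def stepE (E : ℕ) : Step → ℕ
  | .stab f => E ||| 2 ^ f
  | _ => E

/-- The roots fixing the line after a step. -/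
def stepK (K : ℕ) : Step → ℕ
  | .stab _ => K
  | .comm f _ _ => K ||| 2 ^ f
  | .tor f _ => K ||| 2 ^ f

/-- The derivation, returning the mask of the roots fixing the line. -/
noncomputable def derive (G : Good D) (code : ℕ → ℕ → ℕ) (useTor : Bool) (ZL : List ℕ) (r : ℕ) :
    List Step → ℕ → ℕ → Option ℕ
  | [], _, K => some K
  | s :: l, E, K =>
    cond (stepOk G code useTor ZL r E K s) (derive G code useTor ZL r l (stepE E s) (stepK K s)) none

/-- The structural check of a frame of half size `n`. -/
noncomputable def Frame.baseOk (f : Frame) (G : Good D) (code : ℕ → ℕ → ℕ) (n : ℕ) : Bool :=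
  Nat.beq f.L.length n && Nat.beq f.par.length n &&
  (List.range (n + 1)).all (fun i => Nat.blt (f.A.getD i 0) D.nroots) &&
  (List.range n).all (fun j => Nat.blt (f.par.getD j 0) D.nroots) &&
  (List.range (n + 1)).all (fun i => (List.range (n + 1)).all fun j =>
    Nat.beq i j || comm2 G code (f.A.getD i 0) (f.A.getD j 0)) &&
  (List.range n).all (fun j => (List.range (n + 1)).all fun i =>
    !(Nat.beq (f.A.getD i 0) (ngb G (f.par.getD j 0))) && !(Nat.beq (f.A.getD i 0) (f.par.getD j 0)) &&
      Nat.beq (code (f.par.getD j 0) (f.A.getD i 0)) (cond (Nat.beq i (j + 1)) (f.r + 1) 0)) &&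
  (List.range D.nroots).any (fun w => decide (pr G w f.r = 1))

/-- The check that the roots `prev` fix every shifted line. -/
noncomputable def Frame.fixOk (f : Frame) (G : Good D) (code : ℕ → ℕ → ℕ) (useTor : Bool) (prev : List ℕ) : Bool :=
  match derive G code useTor f.A f.r f.steps (maskOf f.A) (maskOf f.L) with
  | none => false
  | some K =>
    let S := maskOf f.S
    prev.all (fun p => S.testBit p) && f.M.all (fun j => Nat.blt j f.L.length) && decide f.M.Nodup &&
      f.S.all fun x => Nat.blt x D.nroots && K.testBit x && f.M.all fun j =>
        !(Nat.beq x (ngb G (f.par.getD j 0))) &&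
          (Nat.beq x (f.par.getD j 0) || Nat.beq (code (f.par.getD j 0) x) 0 ||
            S.testBit (code (f.par.getD j 0) x - 1))

/-- The checks of a chain of frames, starting after the roots `prev`. -/
noncomputable def chainOk (G : Good D) (code : ℕ → ℕ → ℕ) (useTor : Bool) (n : ℕ) : List ℕ → List Frame → Bool
  | _, [] => true
  | prev, f :: l => f.baseOk G code n && f.fixOk G code useTor prev && chainOk G code useTor n (prev ++ [f.r]) l

theorem chainOk_append (G : Good D) (code : ℕ → ℕ → ℕ) (useTor : Bool) (n : ℕ) : ∀ (l l' : List Frame) (prev : List ℕ),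
    chainOk G code useTor n prev l = true → chainOk G code useTor n (prev ++ l.map (·.r)) l' = true →
      chainOk G code useTor n prev (l ++ l') = true
  | [], l', prev, _, h => by simpa using h
  | f :: l, l', prev, h, h' => by
    simp only [chainOk, Bool.and_eq_true] at h
    simp only [List.cons_append, chainOk, Bool.and_eq_true]
    exact ⟨h.1, chainOk_append G code useTor n l l' _ h.2 (by simpa using h')⟩

theorem chainOk_mono (G : Good D) (code : ℕ → ℕ → ℕ) (n : ℕ) : ∀ (l : List Frame) (prev : List ℕ) (b : Bool),
    chainOk G code false n prev l = true → chainOk G code b n prev l = true := by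
  intro l
  induction l with
  | nil => intros; rfl
  | cons f l ih =>
    intro prev b h
    simp only [chainOk, Bool.and_eq_true] at h ⊢
    refine ⟨⟨h.1.1, ?_⟩, ih _ b h.2⟩
    have key : ∀ (st : List Step) (E K K' : ℕ), derive G code false f.A f.r st E K = some K' →
        derive G code b f.A f.r st E K = some K' := by
      intro st
      induction st with
      | nil => intro E K K' h; exact h
      | cons s st ihs =>
        intro E K K' h
        simp only [derive] at h ⊢
        cases hs : stepOk G code false f.A f.r E K s with
        | false => simp [hs] at h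
        | true =>
          have hb : stepOk G code b f.A f.r E K s = true := by
            cases s with
            | stab g => exact hs
            | comm g x y => exact hs
            | tor g w => simp [stepOk] at hs
          rw [hs] at h
          rw [hb]
          exact ihs _ _ _ h
    have h2 := h.1.2
    simp only [Frame.fixOk] at h2 ⊢
    cases hd : derive G code false f.A f.r f.steps (maskOf f.A) (maskOf f.L) with
    | none => simp [hd] at h2
    | some K => rw [key _ _ _ _ hd]; rw [hd] at h2; exact h2

end Cfsg.Agent.H71.E8Deg
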