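import Cfsg.Agent.H71.E6Deg.Step
import Cfsg.Agent.H71.E8Deg.Frame

/-!
# The lines of a frame in a representation
-/

set_option autoImplicit false
set_option linter.unusedSectionVars false
set_option linter.unusedSimpArgs false

open Cfsg.Lie Cfsg.Agent.H46 Cfsg.Agent.H65.Inv Module
open Cfsg.Agent.H71.E6Deg (Sys fixGroup mem_fixGroup commutator_mem_fixGroup fixGroup_conj hG nG xG_add xG_inv xG_zero)

namespace Cfsg.Agent.H71.E8Deg

variable {D : ChevalleyDatum} {G : Good D} {n : ℕ} {F : Type*} [Field F] [Fintype F]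
  {V : Type*} [AddCommGroup V] [Module ℂ V] [FiniteDimensional ℂ V]

/-- A frame with checked structure in a representation. -/
structure LCtx (G : Good D) (n : ℕ) (F : Type*) [Field F] [Fintype F] (V : Type*) [AddCommGroup V]
    [Module ℂ V] where
  /-- the table -/
  T : Tbl G
  /-- the frame -/
  f : Frame
  base : f.baseOk G T.code n = true
  /-- the representation -/
  ρ : ↥(D.group F) →* End ℂ V
  /-- the additive character -/
  ψ : AddChar F ℂ
  prim : ψ ≠ 1

namespace LCtx

variable (C : LCtx G n F V)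
include C

/-- The roots of the frame. -/
def A (i : Fin (n + 1)) : ℕ := C.f.A.getD i 0

/-- The complementary roots. -/
def par (j : Fin n) : ℕ := C.f.par.getD j 0

theorem A_zero : C.A 0 = C.f.r := rfl

theorem facts : C.f.L.length = n ∧ C.f.par.length = n ∧ (∀ i, C.A i < D.nroots) ∧ (∀ j, C.par j < D.nroots) ∧
    (∀ i j, i ≠ j → C.A j ≠ D.neg (C.A i) ∧ (C.A j = C.A i ∨ C.T.code (C.A i) (C.A j) = 0)) ∧
    (∀ (j : Fin n) (i : Fin (n + 1)), C.A i ≠ D.neg (C.par j) ∧ C.A i ≠ C.par j ∧
      C.T.code (C.par j) (C.A i) = if i = j.succ then C.f.r + 1 else 0) ∧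
    (∃ w < D.nroots, D.pairing w C.f.r = 1) := by
  have h := C.base
  simp only [Frame.baseOk, Bool.and_eq_true, List.all_eq_true, List.any_eq_true, List.mem_range, decide_eq_true_eq,
    Nat.beq_eq, Nat.blt_eq, comm2, Bool.or_eq_true, Bool.not_eq_true', pr_eq, ngb_eq] at h
  obtain ⟨⟨⟨⟨⟨⟨hL, hp⟩, hA⟩, hP⟩, hc⟩, hm⟩, hw⟩ := h
  refine ⟨hL, hp, fun i => hA i i.2, fun j => hP j j.2, fun i j hij => ?_, fun j i => ?_, hw⟩
  · obtain ⟨h1, h2⟩ := (hc i i.2 j j.2).resolve_left fun e => hij (Fin.ext e)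
    exact ⟨fun e => by simp [A] at e; simp [e] at h1, h2⟩
  · obtain ⟨⟨h1, h2⟩, h3⟩ := hm j j.2 i i.2
    refine ⟨fun e => by simp [A, par] at e; simp [e] at h1, fun e => by simp [A, par] at e; simp [e] at h2, ?_⟩
    rw [A, par, h3]
    by_cases hi : i = j.succ
    · subst hi; simp
    · rw [if_neg hi, show Nat.beq (i : ℕ) ((j : ℕ) + 1) = false from Bool.eq_false_iff.2 fun e =>
        hi (Fin.ext (by simpa using Nat.eq_of_beq_eq_true e))]
      rfl

theorem comm_A (i j : Fin (n + 1)) (t u : F) : Commute (G.xG (C.A i) t) (G.xG (C.A j) u) := by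
  obtain ⟨-, -, hA, -, hc, -, -⟩ := C.facts
  by_cases hij : i = j
  · subst hij
    show _ = _
    rw [xG_add, xG_add, add_comm]
  · exact C.T.commute (hA i) (hA j) (hc i j hij).1 (hc i j hij).2 t u

/-- The vector group of the frame. -/
noncomputable def vecHom : (Fin (n + 1) → Multiplicative F) →* ↥(D.group F) :=
  MonoidHom.noncommPiCoprod (fun i => E6Deg.xHom G (C.A i)) fun i j _ x y => C.comm_A i j x.toAdd y.toAdd

/-- The element with coordinates `a`. -/
noncomputable def U (a : Fin (n + 1) → F) : ↥(D.group F) := C.vecHom fun i => Multiplicative.ofAdd (a i)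

theorem U_add (a b : Fin (n + 1) → F) : C.U (a + b) = C.U a * C.U b := by
  rw [U, U, U, ← map_mul]; rfl

theorem U_zero : C.U 0 = 1 := map_one C.vecHom

theorem U_single (i : Fin (n + 1)) (w : F) : C.U (Pi.single i w) = G.xG (C.A i) w := by
  have : (fun k => Multiplicative.ofAdd ((Pi.single i w : Fin (n + 1) → F) k)) =
      Pi.mulSingle i (Multiplicative.ofAdd w) := by
    funext k
    by_cases h : k = i
    · subst h; simp
    · simp [h]
  rw [U, this]
  exact MonoidHom.noncommPiCoprod_mulSingle _ i _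

/-- Induction along the coordinates of the vector group. -/
theorem U_induction {p : (Fin (n + 1) → F) → Prop} (h0 : p 0) (hadd : ∀ a b, p a → p b → p (a + b))
    (hs : ∀ i w, p (Pi.single i w)) (a : Fin (n + 1) → F) : p a := by
  rw [← Finset.univ_sum_single a]
  exact Finset.sum_induction _ p hadd h0 fun i _ => hs i (a i)

theorem conj_ext {g : ↥(D.group F)} (M : (Fin (n + 1) → F) →+ (Fin (n + 1) → F))
    (h : ∀ i w, g * G.xG (C.A i) w * g⁻¹ = C.U (M (Pi.single i w))) (a : Fin (n + 1) → F) :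
    g * C.U a * g⁻¹ = C.U (M a) := by
  induction a using C.U_induction with
  | h0 => rw [map_zero, U_zero, mul_one, mul_inv_cancel]
  | hadd a b ha hb => rw [map_add, U_add, U_add, ← ha, ← hb]; group
  | hs i w => rw [U_single]; exact h i w

/-- The system of the frame. -/
noncomputable def sys : Sys ↥(D.group F) V F (n + 1) where
  ρ := C.ρ
  U := C.U
  U_add := C.U_add
  E := 1
  E_idem := mul_one 1
  E_comm _ := Commute.one_left _
  ψ := C.ψ
  ψ_prim := C.prim

/-- The projection of a parameter. -/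
noncomputable def P (c : Fin (n + 1) → F) : End ℂ V := C.sys.P c

/-- The multiplicity of a parameter. -/
noncomputable def m (c : Fin (n + 1) → F) : ℕ := C.sys.mult c

theorem conj_torus {w : ℕ} (hw : w < D.nroots) {z : F} (hz : z ≠ 0) (c : Fin (n + 1) → F) :
    C.ρ (hG G w z) * C.P c * C.ρ (hG G w z)⁻¹ = C.P (fun i => c i * z ^ (-D.pairing w (C.A i))) := by
  let M : (Fin (n + 1) → F) →+ (Fin (n + 1) → F) :=
    { toFun := fun a i => z ^ D.pairing w (C.A i) * a i
      map_zero' := by funext i; simp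
      map_add' := fun a b => by funext i; simp [mul_add] }
  refine C.sys.P_conj (Commute.one_left _) M (Finite.injective_iff_bijective.1 fun a b h => funext fun i =>
    mul_left_cancel₀ (zpow_ne_zero _ hz) (congrFun h i)) (C.conj_ext M fun i v => ?_) c _ fun a => ?_
  · have : M (Pi.single i v) = Pi.single i (z ^ D.pairing w (C.A i) * v) := by
      funext k
      show z ^ D.pairing w (C.A k) * (Pi.single i v : Fin (n + 1) → F) k = _
      by_cases hk : k = i
      · subst hk; simp
      · simp [hk]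
    rw [this, U_single]
    apply Subtype.ext
    rw [Subgroup.coe_mul, Subgroup.coe_mul, Subgroup.coe_inv, mul_inv_eq_iff_eq_mul]
    exact G.hg_mul_xg hw (C.facts.2.2.1 i) hz v
  · simp only [dotProduct]
    refine Finset.sum_congr rfl fun i _ => ?_
    show c i * a i = c i * z ^ (-D.pairing w (C.A i)) * (z ^ D.pairing w (C.A i) * a i)
    rw [zpow_neg, mul_assoc, inv_mul_cancel_left₀ (zpow_ne_zero _ hz)]

/-- A complementary root translates one coordinate. -/
theorem exists_shift (j : Fin n) : ∃ v : ℤ, (v = 1 ∨ v = -1) ∧ ∀ (s : F) (c : Fin (n + 1) → F),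
    C.ρ (G.xG (C.par j) s) * C.P c * C.ρ (G.xG (C.par j) s)⁻¹ =
      C.P (c - Pi.single j.succ (s * (v : F) * c 0)) := by
  obtain ⟨-, -, hA, hp, -, hm, -⟩ := C.facts
  obtain ⟨h1, h2, h3⟩ := hm j j.succ
  rw [if_pos rfl] at h3
  obtain ⟨-, v, hv, heq⟩ := C.T.mul_eq (F := F) (hp j) (hA j.succ) h2 h1 h3
  refine ⟨v, hv, fun s c => ?_⟩
  let M : (Fin (n + 1) → F) →+ (Fin (n + 1) → F) :=
    { toFun := fun a => a + Pi.single 0 (s * (v : F) * a j.succ)
      map_zero' := by simp
      map_add' := fun a b => by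
        simp only [Pi.add_apply, mul_add, Pi.single_add]
        abel }
  have hs0 : (j.succ : Fin (n + 1)) ≠ 0 := Fin.succ_ne_zero j
  refine C.sys.P_conj (Commute.one_left _) M (Finite.injective_iff_bijective.1 fun a b h => ?_)
    (C.conj_ext M fun i w => ?_) c _ fun a => ?_
  · have he : a j.succ = b j.succ := by
      have := congrFun h j.succ
      change a j.succ + (Pi.single 0 (s * (v : F) * a j.succ) : Fin (n + 1) → F) j.succ =
        b j.succ + (Pi.single 0 (s * (v : F) * b j.succ) : Fin (n + 1) → F) j.succ at this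
      rwa [Pi.single_eq_of_ne hs0, Pi.single_eq_of_ne hs0, add_zero, add_zero] at this
    have h' : a + Pi.single 0 (s * (v : F) * a j.succ) = b + Pi.single 0 (s * (v : F) * b j.succ) := h
    rw [he] at h'
    exact add_right_cancel h'
  · rw [show M (Pi.single i w) = Pi.single i w + Pi.single 0 (s * (v : F) * (Pi.single i w : Fin (n + 1) → F) j.succ) from rfl]
    by_cases hi : i = j.succ
    · subst hi
      rw [Pi.single_eq_same, U_add, U_single, U_single, A_zero]
      have h := heq (-s) w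
      rw [show (v : F) * -(-s) * w = s * (v : F) * w by ring] at h
      rw [xG_inv, mul_assoc, h, ← mul_assoc, ← mul_assoc, xG_add, add_neg_cancel, xG_zero, one_mul]
    · obtain ⟨g1, g2, g3⟩ := hm j i
      rw [if_neg hi] at g3
      rw [Pi.single_eq_of_ne (Ne.symm hi), mul_zero, Pi.single_zero, add_zero, U_single,
        (C.T.commute (hp j) (hA i) g1 (Or.inr g3) s w).eq, mul_inv_cancel_right]
  · show dotProduct c a = dotProduct (c - Pi.single j.succ (s * (v : F) * c 0)) (a + Pi.single 0 (s * (v : F) * a j.succ))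
    rw [dotProduct_add, sub_dotProduct, sub_dotProduct, dotProduct_single, single_dotProduct, single_dotProduct,
      Pi.single_eq_of_ne hs0, mul_zero, sub_zero]
    ring

/-- Parameters with the same first coordinate, the others in `S`, are conjugate by shifts. -/
theorem exists_move (H : Subgroup ↥(D.group F)) (S : Finset (Fin n))
    (hH : ∀ j ∈ S, ∀ (s : F), ∀ x ∈ H, (G.xG (C.par j) s)⁻¹ * x * G.xG (C.par j) s ∈ H) :
    ∀ (c : Fin (n + 1) → F), c 0 ≠ 0 → (∀ j : Fin n, j ∉ S → c j.succ = 0) →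
      ∃ g : ↥(D.group F), C.ρ g * C.P (Pi.single 0 (c 0)) * C.ρ g⁻¹ = C.P c ∧ ∀ x ∈ H, g⁻¹ * x * g ∈ H := by
  classical
  induction S using Finset.induction with
  | empty =>
    intro c _ hc
    refine ⟨1, ?_, fun x hx => by simpa using hx⟩
    have : c = Pi.single 0 (c 0) := by
      funext i
      refine Fin.cases ?_ (fun j => ?_) i
      · simp
      · rw [hc j (Finset.notMem_empty j), Pi.single_eq_of_ne (Fin.succ_ne_zero j)]
    rw [inv_one, map_one, one_mul, mul_one, ← this]
  | insert j S hj ih =>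
    intro c hc0 hc
    obtain ⟨v, hv, hsh⟩ := C.exists_shift j
    have hv0 : (v : F) ≠ 0 := by rcases hv with rfl | rfl <;> simp
    set s := -(c j.succ) * (c 0)⁻¹ * (v : F)⁻¹ with hs
    set c' : Fin (n + 1) → F := c - Pi.single j.succ (c j.succ) with hc'
    have h0 : c' 0 = c 0 := by simp [hc', Pi.single_eq_of_ne (Fin.succ_ne_zero j).symm]
    obtain ⟨g, hg, hgH⟩ := ih (fun k hk => hH k (Finset.mem_insert_of_mem hk)) c' (by rw [h0]; exact hc0) (fun k hk => by
      by_cases hkj : k = j
      · subst hkj; simp [hc']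
      · have : c k.succ = 0 := hc k (by simp [hkj, hk])
        simp [hc', this, Pi.single_eq_of_ne (fun e => hkj (Fin.succ_injective _ e))])
    refine ⟨G.xG (C.par j) s * g, ?_, fun x hx => ?_⟩
    · have e := hsh s c'
      rw [h0, show c' - Pi.single j.succ (s * (v : F) * c 0) = c by
        rw [hc', hs, sub_sub, ← Pi.single_add, show c j.succ + -(c j.succ) * (c 0)⁻¹ * (v : F)⁻¹ * (v : F) * c 0 = 0 by
          field_simp; ring, Pi.single_zero, sub_zero]] at e
      rw [← h0, mul_inv_rev, map_mul, map_mul]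
      rw [show C.ρ (G.xG (C.par j) s) * C.ρ g * C.P (Pi.single 0 (c' 0)) * (C.ρ g⁻¹ * C.ρ (G.xG (C.par j) s)⁻¹) =
        C.ρ (G.xG (C.par j) s) * (C.ρ g * C.P (Pi.single 0 (c' 0)) * C.ρ g⁻¹) * C.ρ (G.xG (C.par j) s)⁻¹ by
        simp only [mul_assoc], hg]
      exact e
    · rw [show (G.xG (C.par j) s * g)⁻¹ * x * (G.xG (C.par j) s * g) =
        g⁻¹ * ((G.xG (C.par j) s)⁻¹ * x * G.xG (C.par j) s) * g by group]
      exact hgH _ (hH j (Finset.mem_insert_self j S) s x hx)

/-- The common multiplicity of the parameters non-trivial on the root. -/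
noncomputable def μ : ℕ := C.m (Pi.single 0 1)

theorem m_eq {c : Fin (n + 1) → F} (hc : c 0 ≠ 0) : C.m c = C.μ := by
  classical
  obtain ⟨g, hg, -⟩ := C.exists_move ⊥ Finset.univ (fun j _ s x hx => by
    rw [Subgroup.mem_bot] at hx ⊢; subst hx; group) c hc (fun j hj => absurd (Finset.mem_univ j) hj)
  obtain ⟨-, -, -, -, -, -, w, hw, hp⟩ := C.facts
  have h2 := C.conj_torus hw (inv_ne_zero hc) (Pi.single 0 1)
  rw [show (fun i => (Pi.single 0 1 : Fin (n + 1) → F) i * (c 0)⁻¹ ^ (-D.pairing w (C.A i))) = Pi.single 0 (c 0) by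
    funext i
    by_cases hi : i = 0
    · subst hi; rw [A_zero, hp]; simp
    · simp [hi]] at h2
  exact (C.sys.mult_eq_of_conj hg).trans (C.sys.mult_eq_of_conj h2)

end LCtx

end Cfsg.Agent.H71.E8Deg
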