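import Cfsg.Agent.H71.E8Deg.Table
import Cfsg.Agent.H71.E8Deg.SumTable
import Cfsg.Agent.H46.TypeE8

/-!
# Kernel check of the table of sums of E8, part 1
-/

set_option autoImplicit false

open Cfsg.Lie Cfsg.Agent.H46

namespace Cfsg.Agent.H71.E8Deg

theorem tableCheck1 : ((List.range' 60 60).all fun a => rowOk goodE8 codeE8 a) = true := by decide +kernel

end Cfsg.Agent.H71.E8Deg
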