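import Cfsg.Agent.H71.E6Deg.Step
import Cfsg.Agent.H71.E8Deg.TableCheck0
import Cfsg.Agent.H71.E8Deg.TableCheck1
import Cfsg.Agent.H71.E8Deg.TableCheck2
import Cfsg.Agent.H71.E8Deg.TableCheck3

/-!
# The table of E8 and the transitivity of the reflections on its roots
-/

set_option autoImplicit false
set_option maxRecDepth 8000

open Cfsg.Lie Cfsg.Agent.H46 Cfsg.Agent.H65.Inv Module

namespace Cfsg.Agent.H71.E8Deg

/-- The table of sums of the roots of E8. -/
noncomputable def tblE8 : Tbl goodE8 where
  code := codeE8
  ok a ha := by
    have hn : chevE8.nroots = 240 := by decide +kernel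
    rw [hn] at ha
    have h0 := tableCheck0
    have h1 := tableCheck1
    have h2 := tableCheck2
    have h3 := tableCheck3
    simp only [List.all_eq_true, List.mem_range'_1] at h0 h1 h2 h3
    rcases (by omega : a < 60 ∨ 60 ≤ a ∧ a < 120 ∨ 120 ≤ a ∧ a < 180 ∨ 180 ≤ a) with h | h | h | h
    · exact h0 a (by omega)
    · exact h1 a (by omega)
    · exact h2 a (by omega)
    · exact h3 a (by omega)

/-- The roots reached along a list of reflections. -/
noncomputable def closePath : List (ℕ × ℕ) → List ℕ → List ℕ
  | [], seen => seen
  | (c, p) :: l, seen => closePath l (cond (seen.elem p && Nat.blt p chevE8.nroots &&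
      (List.range chevE8.rank).any fun i => Nat.beq (goodE8.tab.refl i p) c) (c :: seen) seen)

theorem closePath_spec (P : ℕ → Prop) (hP : ∀ p < chevE8.nroots, P p → ∀ i < chevE8.rank, P (goodE8.tab.refl i p)) :
    ∀ (l : List (ℕ × ℕ)) (seen : List ℕ), (∀ x ∈ seen, P x) → ∀ x ∈ closePath l seen, P x
  | [], _, h => h
  | (c, p) :: l, seen, h => by
    refine closePath_spec P hP l _ ?_
    cases hb : (seen.elem p && Nat.blt p chevE8.nroots &&
      (List.range chevE8.rank).any fun i => Nat.beq (goodE8.tab.refl i p) c) with
    | false => exact h
    | true =>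
      simp only [Bool.and_eq_true, List.elem_eq_mem, decide_eq_true_eq, Nat.blt_eq, List.any_eq_true, List.mem_range,
        Nat.beq_eq] at hb
      obtain ⟨⟨hp, hpn⟩, i, hi, rfl⟩ := hb
      intro x hx
      rcases List.mem_cons.1 hx with rfl | hx
      · exact hP p hpn (h p hp) i hi
      · exact h x hx

/-- A list of reflections reaching every root from the highest. -/
def rootPath : List (ℕ × ℕ) := [(238, 239), (237, 238), (236, 237), (235, 236), (234, 235), (233, 234), (232, 234), (231, 233), (225, 233), (230, 231), (224, 231), (229, 230), (223, 230), (228, 229), (222, 229), (218, 223), (227, 228), (221, 228), (217, 222), (226, 227), (220, 227), (216, 221), (213, 217), (219, 226), (215, 220), (212, 216), (203, 213), (214, 219), (211, 215), (209, 212), (202, 212), (210, 214), (208, 211), (201, 211), (199, 209), (207, 210), (200, 210), (206, 208), (198, 208), (193, 199), (205, 207), (197, 207), (196, 206), (192, 198), (183, 193), (204, 205), (195, 205), (191, 197), (190, 196), (182, 192), (161, 183), (194, 204), (189, 195), (181, 191), (187, 190), (180, 190), (160, 182), (188, 194), (186,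 189), (179, 189), (159, 181), (177, 187), (158, 180), (185, 188), (178, 188), (176, 186), (157, 179), (173, 177), (155, 177), (184, 185), (175, 185), (156, 178), (172, 176), (154, 176), (168, 173), (151, 173), (174, 184), (171, 175), (153, 175), (167, 172), (150, 172), (140, 168), (146, 151), (170, 174), (152, 174), (166, 171), (149, 171), (139, 167), (145, 150), (134, 140), (169, 170), (165, 170), (148, 170), (138, 166), (144, 149), (133, 139), (129, 134), (164, 169), (147, 169), (137, 165), (143, 148), (132, 138), (128, 133), (125, 129), (163, 164), (136, 164), (142, 147), (131, 137), (127, 132), (124, 128), (122, 125), (162, 163), (135, 163), (130, 136), (141, 142), (126, 131), (123, 127), (121, 124), (120, 122), (77, 162), (104, 135), (109, 130), (98, 141), (113, 126), (116, 123), (118, 121), (119, 120), (76, 77), (103, 104), (108, 109), (97, 109), (112, 113), (115, 116), (117, 118), (75, 76), (102, 103), (92, 103), (107, 108), (96, 108), (111, 112), (114, 115), (74, 75), (70, 75), (101, 102), (91, 102), (106, 107), (95, 107), (110, 111), (73, 74), (69, 74), (100, 101), (90, 101), (87, 91),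 (105, 106), (94, 106), (72, 73), (68, 73), (65, 69), (99, 100), (89, 100), (86, 90), (93, 105), (71, 72), (67, 72), (64, 68), (55, 65), (88, 99), (85, 89), (83, 86), (66, 71), (63, 67), (61, 64), (54, 64), (84, 88), (82, 85), (62, 66), (60, 63), (53, 63), (51, 61), (81, 84), (80, 82), (59, 62), (52, 62), (58, 60), (50, 60), (45, 51), (79, 81), (57, 59), (49, 59), (48, 58), (44, 50), (35, 45), (78, 79), (56, 57), (47, 57), (43, 49), (42, 48), (34, 44), (46, 56), (41, 47), (33, 43), (39, 42), (32, 42), (40, 46), (38, 41), (31, 41), (29, 39), (37, 40), (30, 40), (28, 38), (25, 29), (36, 37), (27, 37), (24, 28), (20, 25), (26, 36), (23, 27), (19, 24), (13, 20), (22, 26), (18, 23), (12, 19), (21, 22), (17, 22), (11, 18), (16, 21), (10, 17), (15, 16), (9, 16), (14, 15), (8, 15), (6, 14), (7, 8), (5, 6), (4, 5), (3, 4), (2, 3), (1, 2), (0, 1)]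

theorem rootPath_reaches : ((List.range chevE8.nroots).all fun r => (closePath rootPath [239]).elem r) = true := by
  decide +kernel

/-- A property stable under simple reflections holds for all roots when it holds for the highest one. -/
theorem root_induction (P : ℕ → Prop) (h : P 239)
    (hP : ∀ p < chevE8.nroots, P p → ∀ i < chevE8.rank, P (goodE8.tab.refl i p)) : ∀ r < chevE8.nroots, P r := by
  intro r hr
  have hc := rootPath_reaches
  simp only [List.all_eq_true, List.mem_range, List.elem_eq_mem, decide_eq_true_eq] at hc
  exact closePath_spec P hP rootPath [239] (by simpa using h) r (hc r hr)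

end Cfsg.Agent.H71.E8Deg
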