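import Cfsg.Agent.H71.E8Deg.Span
import Cfsg.Agent.H71.E8Deg.Roots
import Cfsg.Agent.H71.E8Deg.Arith
import Cfsg.Agent.H71.E8Deg.Frames0
import Cfsg.Agent.H71.E8Deg.Frames1
import Cfsg.Agent.H71.E8Deg.Frames2
import Cfsg.Agent.H71.E8Deg.Frames3
import Cfsg.Agent.H71.E8Deg.Frames4
import Cfsg.Agent.H71.E8Deg.Frames5
import Cfsg.Agent.H71.E8Deg.Frames6
import Cfsg.Agent.H71.E8Deg.Frames7
import Cfsg.Agent.H71.E8Deg.Frames8
import Cfsg.Agent.H25.CharIntegral
import Cfsg.Agent.S1065

/-!
# The smallest degree of a non-trivial complex representation of E8(q)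
-/

set_option autoImplicit false
set_option linter.unusedSectionVars false
set_option maxRecDepth 8000

open Cfsg.Lie Cfsg.Agent.H46 Cfsg.Agent.H65.Inv Module
open Cfsg.Agent.H71.E6Deg (nG xG_zero)

namespace Cfsg.Agent.H71.E8Deg

theorem chain_next {D : ChevalleyDatum} {G : Good D} {code : ℕ → ℕ → ℕ} {b : Bool} {n : ℕ} {l l' : List Frame}
    {P : List ℕ} (h : chainOk G code b n [] l = true) (e : l.map (·.r) = P)
    (h' : chainOk G code b n P l' = true) : chainOk G code b n [] (l ++ l') = true :=
  chainOk_append G code b n l l' [] h (by rw [List.nil_append, e]; exact h')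

/-- The frames which need no torus element. -/
def framesMain : List Frame := frames0 ++ frames1 ++ frames2 ++ frames3 ++ frames4 ++ frames5 ++ frames6 ++ frames7

theorem framesMain_ok : chainOk goodE8 tblE8.code false 28 [] framesMain = true := by
  show chainOk goodE8 codeE8 false 28 [] framesMain = true
  unfold framesMain
  exact (chain_next (chain_next (chain_next (chain_next (chain_next (chain_next (chain_next frames0_ok frames0_r frames1_ok) (by simp only [List.map_append, List.append_assoc, List.cons_append, List.nil_append, frames0_r, frames1_r]) frames2_ok) (by simp only [List.map_append, List.append_assoc, List.cons_append, List.nil_append, frames0_r, frames1_r, frames2_r]) frames3_ok) (by simp only [List.map_append, List.append_assoc, List.cons_append, List.nil_append, frames0_r, frames1_r, frames2_r, frames3_r]) frames4_ok) (by simp only [List.map_append, List.append_assoc, List.cons_append, List.nil_append, frames0_r, frames1_r, frames2_r, frames3_r, frames4_r]) frames5_ok) (by simp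 only [List.map_append, List.append_assoc, List.cons_append, List.nil_append, frames0_r, frames1_r, frames2_r, frames3_r, frames4_r, frames5_r]) frames6_ok) (by simp only [List.map_append, List.append_assoc, List.cons_append, List.nil_append, frames0_r, frames1_r, frames2_r, frames3_r, frames4_r, frames5_r, frames6_r]) frames7_ok)

theorem framesAll_ok : chainOk goodE8 tblE8.code true 28 [] (framesMain ++ frames8) = true :=
  chain_next (chainOk_mono goodE8 _ 28 _ _ true framesMain_ok)
    (by simp only [framesMain, List.map_append, frames0_r, frames1_r, frames2_r, frames3_r, frames4_r, frames5_r, frames6_r, frames7_r]; rfl) frames8_ok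

theorem sum_framesMain (q : ℕ) (hq : 2 ≤ q) :
    (q - 1) * ((framesMain.map fun f => f.M.length).map fun e => q ^ e).sum + 2 * (q - 1) + 8 = Arith.deg q := by
  have h : q * ((framesMain.map fun f => f.M.length).map fun e => q ^ e).sum + 2 * q + 8 =
      Arith.deg q + ((framesMain.map fun f => f.M.length).map fun e => q ^ e).sum + 2 := by
    simp only [framesMain, Arith.deg, List.map_append, frames0_M, frames1_M, frames2_M, frames3_M, frames4_M, frames5_M, frames6_M, frames7_M, List.map_cons,
      List.map_nil, List.sum_append, List.sum_cons, List.sum_nil]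
    ring
  have := Nat.le_mul_of_pos_left (((framesMain.map fun f => f.M.length).map fun e => q ^ e).sum) (by omega : 0 < q)
  rw [Nat.sub_mul, one_mul]
  omega

theorem sum_framesAll (q : ℕ) (hq : 2 ≤ q) :
    (q - 1) * (((framesMain ++ frames8).map fun f => f.M.length).map fun e => q ^ e).sum + 8 = Arith.deg q := by
  have h := sum_framesMain q hq
  simp only [List.map_append, List.sum_append, frames8_M, List.map_cons, List.map_nil, List.sum_cons, List.sum_nil,
    pow_zero, Nat.mul_add] at h ⊢
  omega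

/-- The first frame. -/
def frame0 : Frame := frames0.head (by simp [frames0])

theorem frame0_base : frame0.baseOk goodE8 tblE8.code 28 = true := by
  have h : chainOk goodE8 codeE8 false 28 [] (frame0 :: frames0.tail) = true := by
    rw [show frame0 :: frames0.tail = frames0 from List.cons_head_tail _]
    exact frames0_ok
  simp only [chainOk, Bool.and_eq_true] at h
  exact h.1.1

theorem frame0_r : frame0.r = 239 := rfl

variable {F : Type*} [Field F] [Fintype F] {k : ℕ}

theorem card_dvd_order : Nat.card ↥(chevE8.group F) ∣ Fintype.card F ^ 120 * Arith.ordPrime (Fintype.card F) := by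
  rw [Cfsg.Agent.S1065.result (F := F) rfl, Arith.ordPrime]
  simp only [mul_assoc]
  exact dvd_rfl

theorem root_elements_generate (ρ : Representation ℂ ↥(chevE8.group F) (Fin k → ℂ))
    (h : ∀ r < chevE8.nroots, ∀ t : F, ρ (goodE8.xG r t) = 1) : ∀ g, ρ g = 1 := by
  rintro ⟨g, hg⟩
  let N : Subgroup (GL chevE8.Idx F) := (MonoidHom.ker (ρ : _ →* _)).map (chevE8.group F).subtype
  have hN : chevE8.group F ≤ N := goodE8.group_le fun r hr t => ⟨goodE8.xG r t, h r hr t, rfl⟩
  obtain ⟨x, hx, e⟩ := hN hg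
  rw [show (⟨g, hg⟩ : ↥(chevE8.group F)) = x from Subtype.ext e.symm]
  exact hx

theorem exists_moves (ρ : Representation ℂ ↥(chevE8.group F) (Fin k → ℂ)) (hρ : ρ.IsIrreducible) (hk : 2 ≤ k) :
    ∃ t : F, ρ (goodE8.xG 239 t) ≠ 1 := by
  by_contra hc
  push Not at hc
  have : ρ.IsIrreducible := hρ
  have htriv : ∀ g, ρ g = 1 := root_elements_generate ρ
    (root_induction (fun r => ∀ t : F, ρ (goodE8.xG r t) = 1) hc fun p hp h i hi t => by
      have heta : (goodE8.tab.eta i p : F) * (goodE8.tab.eta i p : F) = 1 := by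
        simpa using goodE8.eta_cast_sq (F := F) i p
      rw [show goodE8.xG (goodE8.tab.refl i p) t =
        goodE8.xG (goodE8.tab.refl i p) ((goodE8.tab.eta i p : F) * ((goodE8.tab.eta i p : F) * t)) by
        rw [← mul_assoc, heta, one_mul], ← E6Deg.Ctx.nG_conj hi hp, map_mul, map_mul, h, mul_one, ← map_mul,
        mul_inv_cancel, map_one])
  let σ : Subrepresentation ρ := ⟨Submodule.span ℂ {Pi.single ⟨0, by omega⟩ 1},
    fun g v hv => by rw [htriv g]; exact hv⟩
  let σ0 : Subrepresentation ρ := ⟨⊥, fun g v hv => by rw [htriv g]; exact hv⟩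
  let σ1 : Subrepresentation ρ := ⟨⊤, fun g v hv => by rw [htriv g]; exact hv⟩
  have f0 : finrank ℂ σ0.toSubmodule = 0 := finrank_bot ℂ _
  have f1 : finrank ℂ σ1.toSubmodule = k := (finrank_top ℂ (Fin k → ℂ)).trans (Module.finrank_fin_fun ℂ)
  have fs : finrank ℂ σ.toSubmodule = 1 := finrank_span_singleton (by simp)
  have hne1 : σ ≠ σ1 := fun h => by rw [h, f1] at fs; omega
  have hne0 : σ ≠ σ0 := fun h => by rw [h, f0] at fs; omega
  have h01 : σ0 ≠ σ1 := fun h => by rw [h, f1] at f0; omega
  rcases eq_bot_or_eq_top σ with a | a <;> rcases eq_bot_or_eq_top σ0 with c | c <;>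
    rcases eq_bot_or_eq_top σ1 with d | d <;> simp_all

theorem rootDrop_refl (ρ : Representation ℂ ↥(chevE8.group F) (Fin k → ℂ)) {p i : ℕ} (hp : p < chevE8.nroots)
    (hi : i < chevE8.rank) : rootDrop goodE8 ρ (goodE8.tab.refl i p) = rootDrop goodE8 ρ p := by
  have heta : (goodE8.tab.eta i p : F) * (goodE8.tab.eta i p : F) = 1 := by
    simpa using goodE8.eta_cast_sq (F := F) i p
  unfold rootDrop
  symm
  refine Fintype.sum_bijective (fun t => (goodE8.tab.eta i p : F) * t)
    (Function.Involutive.bijective fun t => by rw [← mul_assoc, heta, one_mul]) _ _ fun t => ?_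
  congr 1
  rw [← E6Deg.Ctx.nG_conj hi hp t, map_mul ρ, map_mul ρ, LinearMap.trace_mul_comm, ← mul_assoc, ← map_mul ρ,
    inv_mul_cancel, map_one, one_mul]

theorem deg_le_of_two_le {q m k : ℕ} (hq : 2 ≤ q) (hm : 2 ≤ m) (h : m * ((q - 1) * q ^ 27 * (q + 1)) ≤ k) :
    Arith.deg q ≤ k := by
  have h1 : 2 * ((q - 1) * q ^ 27 * (q + 1)) ≤ k := (Nat.mul_le_mul_right _ hm).trans h
  have e : (q - 1) * q ^ 27 * (q + 1) + q ^ 27 = q ^ 29 := by
    obtain ⟨a, rfl⟩ : ∃ a, q = a + 1 := ⟨q - 1, by omega⟩
    rw [Nat.add_sub_cancel]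
    ring
  have hd : Arith.deg q = q ^ 29 + q ^ 23 + q ^ 19 + q ^ 17 + q ^ 13 + q ^ 11 + q ^ 7 + q := by
    unfold Arith.deg; ring
  have hp : ∀ i, i ≤ 23 → q ^ i ≤ q ^ 23 := fun i hi => Nat.pow_le_pow_right (by omega) hi
  have hb : 4 * q ^ 27 ≤ q ^ 29 := by
    rw [show q ^ 29 = q * q * q ^ 27 by ring]
    exact Nat.mul_le_mul_right _ (Nat.mul_le_mul hq hq)
  have hc : 16 * q ^ 23 ≤ q ^ 27 := by
    rw [show q ^ 27 = q ^ 4 * q ^ 23 by ring]
    exact Nat.mul_le_mul_right _ ((Nat.pow_le_pow_left hq 4))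
  have := hp 19 (by norm_num)
  have := hp 17 (by norm_num)
  have := hp 13 (by norm_num)
  have := hp 11 (by norm_num)
  have := hp 7 (by norm_num)
  have := hp 1 (by norm_num)
  rw [pow_one] at this
  omega

theorem min_degree (k : ℕ) (ρ : Representation ℂ ↥(chevE8.group F) (Fin k → ℂ)) (hρ : ρ.IsIrreducible)
    (hk : 2 ≤ k) : Fintype.card F * (Fintype.card F ^ 12 + 1) * (Fintype.card F ^ 10 + 1) *
      (Fintype.card F ^ 6 + 1) ≤ k := by
  show Arith.deg (Fintype.card F) ≤ k
  have : ρ.IsIrreducible := hρ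
  have hq2 : 2 ≤ Fintype.card F := Fintype.one_lt_card
  obtain ⟨ψ, hψ0⟩ := AddChar.exists_apply_ne_zero.2 (one_ne_zero : (1 : F) ≠ 0)
  have hψ : ψ ≠ 1 := fun h => hψ0 (by rw [h]; rfl)
  have hfin : finrank ℂ (Fin k → ℂ) = k := Module.finrank_fin_fun ℂ
  let C : LCtx goodE8 28 F (Fin k → ℂ) := ⟨tblE8, frame0, frame0_base, ρ, ψ, hψ⟩
  have hdrop : ∀ r < chevE8.nroots, rootDrop goodE8 ρ r = rootDrop goodE8 ρ 239 :=
    root_induction (fun r => rootDrop goodE8 ρ r = rootDrop goodE8 ρ 239) rfl
      fun p hp h i hi => (rootDrop_refl ρ hp hi).trans h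
  have hC : rootDrop goodE8 ρ 239 =
      ((Fintype.card F * ((Fintype.card F - 1) * Fintype.card F ^ 28 * C.μ) : ℕ) : ℂ) := by
    rw [← frame0_r]
    exact C.rootDrop_root
  rcases Nat.lt_trichotomy C.μ 1 with h0 | h1 | h2
  · exfalso
    obtain ⟨t, ht⟩ := exists_moves ρ hρ hk
    apply ht
    have := C.rho_root_of_μ_zero (by omega) t
    rwa [show C.f.r = 239 from frame0_r] at this
  swap
  · have h := C.le_finrank 0 ((hdrop _ (C.facts.2.2.1 _)).trans (frame0_r ▸ rfl))
    rw [hfin] at h
    exact deg_le_of_two_le hq2 h2 h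
  have hμ : ∀ (f : Frame) (hb : f.baseOk goodE8 tblE8.code 28 = true),
      (LCtx.mk tblE8 f hb ρ ψ hψ : LCtx goodE8 28 F (Fin k → ℂ)).μ = 1 := by
    intro f hb
    let C' : LCtx goodE8 28 F (Fin k → ℂ) := ⟨tblE8, f, hb, ρ, ψ, hψ⟩
    show C'.μ = 1
    have e := C'.rootDrop_root
    rw [show rootDrop goodE8 C'.ρ C'.f.r = rootDrop goodE8 ρ 239 from hdrop _ (C'.facts.2.2.1 0), hC, Nat.cast_inj,
      h1] at e
    have e' := Nat.eq_of_mul_eq_mul_left (by omega) e
    exact (Nat.eq_of_mul_eq_mul_left (Nat.mul_pos (by omega) (pow_pos (by omega) _)) e').symm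
  have hle : ∀ l : List ℕ, finrank ℂ (fixSp goodE8 (ρ : ↥(chevE8.group F) →* End ℂ (Fin k → ℂ)) l) ≤ k :=
    fun l => (Submodule.finrank_le _).trans hfin.le
  have hlo : Arith.deg (Fintype.card F) ≤ k + 10 := by
    have h := chain_span tblE8 ρ ψ hψ (useTor := false) (fun h => nomatch h) hμ framesMain [] framesMain_ok
    have h' := hle []
    have hs := sum_framesMain (Fintype.card F) hq2
    by_cases h3 : 3 ≤ Fintype.card F
    · have h := chain_span tblE8 ρ ψ hψ (useTor := true) (fun _ => h3) hμ (framesMain ++ frames8) [] framesAll_ok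
      have hs := sum_framesAll (Fintype.card F) hq2
      omega
    · omega
  have hlo3 : 3 ≤ Fintype.card F → Arith.deg (Fintype.card F) ≤ k + 8 := by
    intro h3
    have h := chain_span tblE8 ρ ψ hψ (useTor := true) (fun _ => h3) hμ (framesMain ++ frames8) [] framesAll_ok
    have h' := hle []
    have hs := sum_framesAll (Fintype.card F) hq2
    omega
  refine Arith.not_below (FiniteField.isPrimePow_card F) ?_ hlo hlo3
  have := Cfsg.Agent.H25.finrank_dvd_card ρ
  rw [hfin] at this
  exact this.trans card_dvd_order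

end Cfsg.Agent.H71.E8Deg
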