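import Cfsg.Agent.H71.E8Deg.Fix

/-!
# The independent lines of a chain of frames
-/

set_option autoImplicit false
set_option linter.unusedSectionVars false
set_option linter.unusedSimpArgs false

open Cfsg.Lie Cfsg.Agent.H46 Cfsg.Agent.H65.Inv Module
open Cfsg.Agent.H71.E6Deg (Sys fixGroup mem_fixGroup hG xG_zero)

namespace Cfsg.Agent.H71.E8Deg

variable {D : ChevalleyDatum} {G : Good D} {n : ℕ} {F : Type*} [Field F] [Fintype F]
  {V : Type*} [AddCommGroup V] [Module ℂ V]

/-- The vectors fixed by the root elements of some roots. -/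
def fixSp (G : Good D) (ρ : ↥(D.group F) →* End ℂ V) (prev : List ℕ) : Submodule ℂ V where
  carrier := {v | ∀ p ∈ prev, ∀ t : F, ρ (G.xG p t) v = v}
  add_mem' := fun {v w} hv hw p hp t => by rw [map_add, hv p hp t, hw p hp t]
  zero_mem' := fun p hp t => map_zero _
  smul_mem' := fun c v hv p hp t => by rw [map_smul, hv p hp t]

/-- The total loss of trace of a root subgroup. -/
noncomputable def rootDrop (G : Good D) (ρ : ↥(D.group F) →* End ℂ V) (r : ℕ) : ℂ :=
  ∑ t : F, ((finrank ℂ V : ℂ) - LinearMap.trace ℂ V (ρ (G.xG r t)))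

variable [FiniteDimensional ℂ V]

namespace LCtx

variable (C : LCtx G n F V)
include C

theorem sum_P : ∑ c, C.P c = 1 := C.sys.sum_P

theorem rho_U (a : Fin (n + 1) → F) : C.ρ (C.U a) = ∑ c, C.sys.chi c a • C.P c := by
  have h : (∑ c, C.P c) * C.ρ (C.U a) = ∑ c, C.sys.chi c a • C.P c := by
    rw [Finset.sum_mul]
    exact Finset.sum_congr rfl fun c _ => C.sys.P_mul_rho c a
  rwa [C.sum_P, one_mul] at h

theorem trace_xG (i : Fin (n + 1)) (t : F) :
    LinearMap.trace ℂ V (C.ρ (G.xG (C.A i) t)) = ∑ c : Fin (n + 1) → F, C.ψ (c i * t) * (C.m c : ℂ) := by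
  classical
  rw [← C.U_single, C.rho_U, map_sum]
  refine Finset.sum_congr rfl fun c _ => ?_
  rw [map_smul, smul_eq_mul, Sys.chi_apply, dotProduct_single, show LinearMap.trace ℂ V (C.P c) = (C.m c : ℂ) from
    C.sys.trace_P c]
  rfl

theorem sum_m : (finrank ℂ V : ℂ) = ∑ c, (C.m c : ℂ) := by
  rw [← LinearMap.trace_one ℂ V]
  exact C.sys.trace_E

theorem rootDrop_eq [DecidableEq F] (i : Fin (n + 1)) : rootDrop G C.ρ (C.A i) =
    ((Fintype.card F * ∑ c ∈ Finset.univ.filter (fun c : Fin (n + 1) → F => c i ≠ 0), C.m c : ℕ) : ℂ) := by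
  simp only [rootDrop, C.trace_xG i, C.sum_m, ← Finset.sum_sub_distrib]
  rw [Finset.sum_comm, Nat.cast_mul, Nat.cast_sum, Finset.mul_sum, Finset.sum_filter]
  refine Finset.sum_congr rfl fun c _ => ?_
  rw [Finset.sum_sub_distrib, Finset.sum_const, Finset.card_univ, nsmul_eq_mul, ← Finset.sum_mul,
    show ∑ t : F, C.ψ (c i * t) = if c i = 0 then (Fintype.card F : ℂ) else 0 from C.sys.sum_psi_mul (c i)]
  by_cases h : c i = 0
  · rw [if_pos h, if_neg (not_not.2 h), sub_self]
  · rw [if_neg h, if_pos h, zero_mul, sub_zero]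

theorem sum_m_first [DecidableEq F] :
    ∑ c ∈ Finset.univ.filter (fun c : Fin (n + 1) → F => c 0 ≠ 0), C.m c =
      (Fintype.card F - 1) * Fintype.card F ^ n * C.μ := by
  rw [Finset.sum_congr rfl fun c hc => C.m_eq (Finset.mem_filter.1 hc).2, Finset.sum_const, smul_eq_mul]
  congr 1
  have e : (Finset.univ.filter fun c : Fin (n + 1) → F => c 0 ≠ 0) = Fintype.piFinset
      (Fin.cons ((Finset.univ : Finset F).erase 0) (fun _ => Finset.univ) : Fin (n + 1) → Finset F) := by
    ext c
    simp [Fintype.mem_piFinset, Fin.forall_fin_succ]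
  rw [e, Fintype.card_piFinset, Fin.prod_univ_succ]
  simp [Finset.card_erase_of_mem]

theorem rootDrop_root : rootDrop G C.ρ C.f.r =
    ((Fintype.card F * ((Fintype.card F - 1) * Fintype.card F ^ n * C.μ) : ℕ) : ℂ) := by
  classical
  rw [← C.A_zero, C.rootDrop_eq, C.sum_m_first]

theorem rho_root_of_μ_zero (h : C.μ = 0) (t : F) : C.ρ (G.xG C.f.r t) = 1 := by
  rw [← C.A_zero, ← C.U_single, C.rho_U, ← C.sum_P]
  refine Finset.sum_congr rfl fun c _ => ?_
  by_cases hc : c 0 = 0
  · rw [Sys.chi_apply, dotProduct_single, hc, zero_mul, AddChar.map_zero_eq_one, one_smul]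
  · rw [show C.P c = 0 from C.sys.P_eq_zero ((C.m_eq hc).trans h), smul_zero]

/-- The bound from the roots of the first two coordinates. -/
theorem le_finrank (j : Fin n) (hd : rootDrop G C.ρ (C.A j.succ) = rootDrop G C.ρ C.f.r) :
    C.μ * ((Fintype.card F - 1) * Fintype.card F ^ (n - 1) * (Fintype.card F + 1)) ≤ finrank ℂ V := by
  classical
  obtain ⟨q, hq⟩ : ∃ q, Fintype.card F = q + 1 := ⟨Fintype.card F - 1, by have := Fintype.one_lt_card (α := F); omega⟩
  have hn : n = n - 1 + 1 := by have := j.2; omega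
  have hk : finrank ℂ V = ∑ c, C.m c := by exact_mod_cast C.sum_m
  rw [C.rootDrop_eq, C.rootDrop_root, Nat.cast_inj] at hd
  have hd := Nat.eq_of_mul_eq_mul_left (by omega) hd
  set T1 := Finset.univ.filter (fun c : Fin (n + 1) → F => c j.succ ≠ 0) with hT1
  set T0 := Finset.univ.filter (fun c : Fin (n + 1) → F => c 0 ≠ 0) with hT0
  have h1 := Finset.sum_union_inter (s₁ := T0) (s₂ := T1) (f := C.m)
  rw [hd, hT0, C.sum_m_first] at h1
  have hle : ∑ c ∈ T0 ∪ T1, C.m c ≤ finrank ℂ V := hk ▸ Finset.sum_le_sum_of_subset (Finset.subset_univ _)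
  have hi : ∑ c ∈ T0 ∩ T1, C.m c = q * q * (q + 1) ^ (n - 1) * C.μ := by
    rw [Finset.sum_congr rfl fun c hc => C.m_eq (Finset.mem_filter.1 (Finset.mem_inter.1 hc).1).2, Finset.sum_const,
      smul_eq_mul]
    congr 1
    have e : T0 ∩ T1 = Fintype.piFinset (Fin.cons ((Finset.univ : Finset F).erase 0)
          (fun i => if i = j then Finset.univ.erase 0 else Finset.univ) : Fin (n + 1) → Finset F) := by
      ext c
      simp only [hT0, hT1, Finset.mem_inter, Finset.mem_filter, Finset.mem_univ, true_and, Fintype.mem_piFinset, Fin.forall_fin_succ,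
        Fin.cons_zero, Fin.cons_succ, Finset.mem_erase, and_true]
      refine ⟨fun h => ⟨h.1, fun i => ?_⟩, fun h => ⟨h.1, ?_⟩⟩
      · split_ifs with hij
        · subst hij; simp [h.2]
        · simp
      · simpa using h.2 j
    rw [e, Fintype.card_piFinset, Fin.prod_univ_succ]
    simp only [Fin.cons_zero, Fin.cons_succ, Finset.card_erase_of_mem (Finset.mem_univ _), Finset.card_univ, hq,
      Nat.add_sub_cancel]
    rw [← Finset.mul_prod_erase _ _ (Finset.mem_univ j), if_pos rfl,
      Finset.prod_congr rfl fun i hi => by rw [if_neg (Finset.ne_of_mem_erase hi)]]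
    simp [Finset.card_erase_of_mem, hq]
    ring
  rw [hT0] at hle hi
  rw [hi, hq] at h1
  rw [hq]
  simp only [Nat.add_sub_cancel] at h1 ⊢
  have e1 : (q + 1) ^ n = (q + 1) ^ (n - 1) * (q + 1) := by rw [← pow_succ, ← hn]
  rw [e1] at h1
  nlinarith [h1, hle]

variable {useTor : Bool} (htor : useTor = true → 3 ≤ Fintype.card F) (hμ : C.μ = 1)
include htor hμ

/-- A frame gives independent vectors fixed by the previous roots and none fixed by its root. -/
theorem span_step {prev : List ℕ} (hfix : C.f.fixOk G C.T.code useTor prev = true) :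
    (Fintype.card F - 1) * Fintype.card F ^ C.f.M.length + finrank ℂ (fixSp G C.ρ (prev ++ [C.f.r])) ≤
      finrank ℂ (fixSp G C.ρ prev) := by
  classical
  obtain ⟨hnd, hlt⟩ : C.f.M.Nodup ∧ ∀ j ∈ C.f.M, j < n := by
    have h := hfix
    simp only [Frame.fixOk] at h
    cases hd : derive G C.T.code useTor C.f.A C.f.r C.f.steps (maskOf C.f.A) (maskOf C.f.L) with
    | none => simp [hd] at h
    | some K =>
      rw [hd] at h
      simp only [Bool.and_eq_true, List.all_eq_true, Nat.blt_eq, decide_eq_true_eq] at h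
      exact ⟨h.1.2, fun j hj => C.facts.1 ▸ h.1.1.2 j hj⟩
  set T := Finset.univ.filter fun c : Fin (n + 1) → F => c 0 ≠ 0 ∧ ∀ j : Fin n, (j : ℕ) ∉ C.f.M → c j.succ = 0 with hT
  set E := ∑ c ∈ T, C.P c with hE
  have hEE : E * E = E := by
    rw [hE, Finset.sum_mul]
    refine Finset.sum_congr rfl fun c hc => ?_
    rw [Finset.mul_sum]
    exact (Finset.sum_eq_single c (fun d _ hd => C.sys.P_mul_P_of_ne (Ne.symm hd))
      (fun h => absurd hc h)).trans (C.sys.P_mul_P c)
  have hrank : finrank ℂ (LinearMap.range E) = T.card := by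
    have h1 := ((LinearMap.isProj_range_iff_isIdempotentElem E).2 hEE).trace
    have h2 : LinearMap.trace ℂ V E = (T.card : ℂ) := by
      rw [hE, map_sum, Finset.sum_congr rfl fun c hc => show LinearMap.trace ℂ V (C.P c) = 1 by
        rw [show C.P c = C.sys.P c from rfl, C.sys.trace_P]
        exact_mod_cast (C.m_eq (Finset.mem_filter.1 hc).2.1).trans hμ]
      simp
    exact_mod_cast h1.symm.trans h2
  have hcard : T.card = (Fintype.card F - 1) * Fintype.card F ^ C.f.M.length := by
    have e : T = Fintype.piFinset (Fin.cons ((Finset.univ : Finset F).erase 0)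
        (fun j : Fin n => if (j : ℕ) ∈ C.f.M then Finset.univ else {0}) : Fin (n + 1) → Finset F) := by
      ext c
      simp only [hT, Finset.mem_filter, Finset.mem_univ, true_and, Fintype.mem_piFinset, Fin.forall_fin_succ, Fin.cons_zero, Fin.cons_succ,
        Finset.mem_erase, and_true]
      refine and_congr_right fun _ => forall_congr' fun j => ?_
      split_ifs with hj <;> simp [hj]
    rw [e, Fintype.card_piFinset, Fin.prod_univ_succ]
    simp only [Fin.cons_zero, Fin.cons_succ, Finset.card_erase_of_mem (Finset.mem_univ _), Finset.card_univ,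
      apply_ite Finset.card, Finset.card_singleton, Finset.prod_ite, Finset.prod_const, one_pow, mul_one]
    congr 2
    rw [← Finset.card_map Fin.valEmbedding, ← List.toFinset_card_of_nodup hnd]
    congr 1
    ext x
    simp only [Finset.mem_map, Finset.mem_filter, Finset.mem_univ, true_and, List.mem_toFinset, Fin.valEmbedding_apply]
    exact ⟨fun ⟨j, hj, e⟩ => e ▸ hj, fun hx => ⟨⟨x, hlt x hx⟩, hx, rfl⟩⟩
  have hsub : LinearMap.range E ≤ fixSp G C.ρ prev := by
    rintro _ ⟨w, rfl⟩ p hp t
    have : C.ρ (G.xG p t) * E = E := by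
      rw [hE, Finset.mul_sum]
      refine Finset.sum_congr rfl fun c hc => ?_
      obtain ⟨h0, hs⟩ := (Finset.mem_filter.1 hc).2
      obtain ⟨h1, h2⟩ := mem_fixGroup.1 (C.shifted_fixed htor h0 hμ hfix c rfl hs p hp t)
      rw [← h1.eq, h2]
    exact LinearMap.congr_fun this w
  have hinf : LinearMap.range E ⊓ fixSp G C.ρ (prev ++ [C.f.r]) = ⊥ := by
    rw [eq_bot_iff]
    rintro v ⟨⟨w, rfl⟩, hv⟩
    rw [Submodule.mem_bot]
    have hz : ∑ t : F, E * C.ρ (G.xG C.f.r t) = 0 := by
      simp only [hE, Finset.sum_mul]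
      rw [Finset.sum_comm]
      refine Finset.sum_eq_zero fun c hc => ?_
      have e : ∀ t : F, C.P c * C.ρ (G.xG C.f.r t) = C.ψ (c 0 * t) • C.P c := fun t => by
        rw [← C.A_zero, ← C.U_single]
        refine (C.sys.P_mul_rho c _).trans ?_
        rw [Sys.chi_apply, dotProduct_single]
        rfl
      rw [Finset.sum_congr rfl fun t _ => e t, ← Finset.sum_smul,
        show ∑ t : F, C.ψ (c 0 * t) = if c 0 = 0 then (Fintype.card F : ℂ) else 0 from C.sys.sum_psi_mul (c 0),
        if_neg (Finset.mem_filter.1 hc).2.1, zero_smul]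
    have h := LinearMap.congr_fun hz (E w)
    rw [LinearMap.coe_sum, Finset.sum_apply, LinearMap.zero_apply] at h
    have e : ∀ t : F, (E * C.ρ (G.xG C.f.r t)) (E w) = E w := fun t => by
      rw [End.mul_apply, hv C.f.r (by simp) t, ← End.mul_apply, hEE]
    rw [Finset.sum_congr rfl fun t _ => e t, Finset.sum_const, Finset.card_univ, ← Nat.cast_smul_eq_nsmul ℂ] at h
    exact (smul_eq_zero.1 h).resolve_left (Nat.cast_ne_zero.2 Fintype.card_ne_zero)
  have hle : fixSp G C.ρ (prev ++ [C.f.r]) ≤ fixSp G C.ρ prev := fun v hv p hp => hv p (List.mem_append_left _ hp)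
  have h := Submodule.finrank_sup_add_finrank_inf_eq (LinearMap.range E) (fixSp G C.ρ (prev ++ [C.f.r]))
  rw [hinf, finrank_bot, add_zero, hrank, hcard] at h
  rw [← h]
  exact Submodule.finrank_mono (sup_le hsub hle)

end LCtx

/-- The lines of a chain of frames are independent. -/
theorem chain_span (T : Tbl G) (ρ : ↥(D.group F) →* End ℂ V) (ψ : AddChar F ℂ) (hψ : ψ ≠ 1) {useTor : Bool}
    (htor : useTor = true → 3 ≤ Fintype.card F)
    (hμ : ∀ (f : Frame) (hb : f.baseOk G T.code n = true), (LCtx.mk T f hb ρ ψ hψ : LCtx G n F V).μ = 1) :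
    ∀ (l : List Frame) (prev : List ℕ), chainOk G T.code useTor n prev l = true →
      (Fintype.card F - 1) * ((l.map fun f => f.M.length).map fun e => Fintype.card F ^ e).sum +
        finrank ℂ (fixSp G ρ (prev ++ l.map (·.r))) ≤ finrank ℂ (fixSp G ρ prev)
  | [], prev, _ => by
    show _ * 0 + finrank ℂ (fixSp G ρ (prev ++ [])) ≤ _
    rw [List.append_nil, mul_zero, zero_add]
  | f :: l, prev, h => by
    simp only [chainOk, Bool.and_eq_true] at h
    have h1 : (Fintype.card F - 1) * Fintype.card F ^ f.M.length + finrank ℂ (fixSp G ρ (prev ++ [f.r])) ≤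
        finrank ℂ (fixSp G ρ prev) :=
      (LCtx.mk T f h.1.1 ρ ψ hψ : LCtx G n F V).span_step htor (hμ f h.1.1) h.1.2
    have h2 := chain_span T ρ ψ hψ htor hμ l (prev ++ [f.r]) h.2
    rw [List.append_assoc] at h2
    show (Fintype.card F - 1) * (Fintype.card F ^ f.M.length +
      ((l.map fun f => f.M.length).map fun e => Fintype.card F ^ e).sum) +
      finrank ℂ (fixSp G ρ (prev ++ ([f.r] ++ l.map (·.r)))) ≤ _
    rw [Nat.mul_add]
    omega

end Cfsg.Agent.H71.E8Deg
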