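import Cfsg.Agent.H71.E6Deg.Lie

/-!
# Tables of sums of roots for the simply laced commutator formula
-/

set_option autoImplicit false

open Cfsg.Lie Cfsg.Agent.H46 Cfsg.Agent.H65.Inv

namespace Cfsg.Agent.H71.E8Deg

variable {D : ChevalleyDatum} (G : Good D)

/-- The row `a` of a table of sums is right: code `0` for no commutator term, `c + 1` for the single term `c`. -/
noncomputable def rowOk (code : ℕ → ℕ → ℕ) (a : ℕ) : Bool :=
  (List.range D.nroots).all fun b => Nat.beq b a || Nat.beq b (ngb G a) ||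
    match ct G a b with
    | [] => Nat.beq (code a b) 0
    | [(c, v, 1, 1)] => Nat.beq (code a b) (c + 1) && Nat.blt c D.nroots && Nat.beq v.natAbs 1
    | _ => false

/-- A table of sums of roots. -/
structure Tbl where
  /-- the code of the sum -/
  code : ℕ → ℕ → ℕ
  ok : ∀ a < D.nroots, rowOk G code a = true

variable {G}

theorem Tbl.spec (T : Tbl G) {a b : ℕ} (ha : a < D.nroots) (hb : b < D.nroots) (hne : b ≠ a) (hn : b ≠ D.neg a) :
    (T.code a b = 0 → D.commTerms a b = []) ∧
      ∀ c, T.code a b = c + 1 → c < D.nroots ∧ ∃ v : ℤ, (v = 1 ∨ v = -1) ∧ D.commTerms a b = [(c, v, 1, 1)] := by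
  have h := T.ok a ha
  simp only [rowOk, List.all_eq_true, List.mem_range, Bool.or_eq_true, Nat.beq_eq, ngb_eq] at h
  have h' := (h b hb).resolve_left (fun e => e.elim hne hn)
  rw [← ct_eq G]
  split at h' <;> rename_i heq
  · simp only [Nat.beq_eq] at h'
    exact ⟨fun _ => heq, fun c hc => by omega⟩
  · rename_i c v
    simp only [Bool.and_eq_true, Nat.beq_eq, Nat.blt_eq] at h'
    obtain ⟨⟨hc, hcn⟩, hv⟩ := h'
    exact ⟨fun h0 => by omega, fun c' hc' => ⟨by omega, v, by omega, by rw [heq, show c' = c by omega]⟩⟩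
  · simp at h'

variable {F : Type*} [Field F]

/-- Root elements with no term commute. -/
theorem Tbl.commute (T : Tbl G) {a b : ℕ} (ha : a < D.nroots) (hb : b < D.nroots) (hn : b ≠ D.neg a)
    (h0 : b = a ∨ T.code a b = 0) (t u : F) : Commute (G.xG a t) (G.xG b u) := by
  by_cases hne : b = a
  · subst hne
    show _ = _
    rw [E6Deg.xG_add, E6Deg.xG_add, add_comm]
  · have hc := (T.spec ha hb hne hn).1 (h0.resolve_left hne)
    refine Subtype.ext (Units.ext ?_)
    simp only [Subgroup.coe_mul, E6Deg.coe_xG, Units.val_mul, Good.coe_xg]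
    rw [G.x_mul_x ha hb hne hn t u]
    simp [ChevalleyDatum.commWord, hc, wordMat_nil]

/-- The commutator formula with a single term. -/
theorem Tbl.mul_eq (T : Tbl G) {a b c : ℕ} (ha : a < D.nroots) (hb : b < D.nroots) (hne : b ≠ a)
    (hn : b ≠ D.neg a) (hc : T.code a b = c + 1) : c < D.nroots ∧ ∃ v : ℤ, (v = 1 ∨ v = -1) ∧
      ∀ t u : F, G.xG b u * G.xG a t = G.xG a t * G.xG b u * G.xG c ((v : F) * -t * u) := by
  obtain ⟨hcn, v, hv, hL⟩ := (T.spec ha hb hne hn).2 c hc
  refine ⟨hcn, v, hv, fun t u => Subtype.ext (Units.ext ?_)⟩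
  simp only [Subgroup.coe_mul, E6Deg.coe_xG, Units.val_mul, Good.coe_xg]
  rw [G.x_mul_x ha hb hne hn t u]
  simp [ChevalleyDatum.commWord, hL, wordMat_cons, wordMat_nil]

end Cfsg.Agent.H71.E8Deg
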